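import Cfsg.Agent.CpAutHNFive.Main

/-!
# TEAM EB, row HN: automorphisms of the Harada-Norton group fixing an element of order 5

* `inner_of_fix`: an automorphism of `HN` fixing the involution `W0` and an element `a` of order 5 of
  `C(W0)` of type I is inner;
* `inner_of_fix_y`: an automorphism of `HN` fixing such an element `a` is inner.
-/

set_option autoImplicit false
set_option maxRecDepth 100000

namespace Cfsg.Agent.H481.EB.HN

open Cfsg.Agent.HN Cfsg.Agent.HN.Pres Cfsg.Agent.HN.P1408 Cfsg.Agent.HN.H0Basic Cfsg.Agent.HN.XMat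
open Cfsg.Agent.HN.XStruct Cfsg.Agent.HN.XWords Cfsg.Agent.HN.XQuot Cfsg.Agent.HN.XInst
open Cfsg.Agent
open Cfsg.Agent.KFacts.HN
open Cfsg.Agent.CpAutHN.PPFacts (isPGroup_ker acts_of_ρ)
open Cfsg.Agent.CpAutHN.LqFacts (conj_A conj_B conj_AB e1_A)
open Cfsg.Agent.CpAutHNFive Cfsg.Agent.CpAutHNFive.LFive Cfsg.Agent.CpAutHNFive.PFive
open Cfsg.Agent.SporadicA.PermTab (band_eq_true allB allB_iff)
open Cfsg.Agent.Lib.AltCarmichael (cyc cyc_mem)

/-- the image of the word of `φA c5` under the outer automorphism -/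
def vO : List ℕ := bw 0 ++ (bw 0 ++ (bw 2 ++ bw 1))

theorem chkO : allB (fun m => Nat.beq (app (mw vO) m) (app PHI (app (mw vA) (app PHI m)))) 256 = true := by
  decide +kernel

theorem app_vO {m : ℕ} (hm : m < 256) : app (mw vO) m = app PHI (app (mw vA) (app PHI m)) :=
  Nat.eq_of_beq_eq_true ((allB_iff _ _).1 chkO m hm)

/-- the 5-cycle of `vO` -/
def sO : A5 := ⟨cyc 3 0, cyc_mem 3 0 (by norm_num)⟩ * (⟨cyc 3 0, cyc_mem 3 0 (by norm_num)⟩ *
  (⟨cyc 3 2, cyc_mem 3 2 (by norm_num)⟩ * ⟨cyc 3 1, cyc_mem 3 1 (by norm_num)⟩))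

theorem φB_sO : φB sO = e vO := by
  rw [sO, map_mul, map_mul, map_mul, φB_cyc (by norm_num), φB_cyc (by norm_num), φB_cyc (by norm_num), vO, e_append,
    e_append, e_append]

/-- the permutation of `sO` -/
def pO : Equiv.Perm (Fin 5) := cyc 3 0 * (cyc 3 0 * (cyc 3 2 * cyc 3 1))

theorem perm_not_conj : ∀ h : Equiv.Perm (Fin 5), h * p5 = pO * h → Equiv.Perm.sign h = 1 → False := by
  decide +kernel

theorem sO_ne (h : A5) : h * c5 ≠ sO * h := by
  intro h1
  exact perm_not_conj h (congrArg Subtype.val h1) (Equiv.Perm.mem_alternatingGroup.1 h.2)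

theorem sO_ne_one : sO ≠ 1 := by
  intro h
  have h1 : pO = 1 := congrArg Subtype.val h
  exact absurd h1 (by decide +kernel)

/-- `φA c5` and `φB sO` are not conjugate -/
theorem not_conj_O (g : Lq) : g * φA c5 * g⁻¹ ≠ φB sO := by
  intro h
  by_cases hg : g ∈ LL
  · obtain ⟨a, b, rfl⟩ := mem_LL.1 hg
    rw [conj_A] at h
    exact sO_ne_one (A_inter_B h).2
  · have h1 : g * e [1] ∈ LL := by
      rw [Subgroup.mul_mem_iff_of_index_two index_LL]
      have := e1_notMem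
      tauto
    obtain ⟨a, b, hab⟩ := mem_LL.1 h1
    have h2 : g * φA c5 * g⁻¹ = φB (b * c5 * b⁻¹) := by
      rw [← conj_B a b c5, hab, φB_apply]
      group
    rw [h2] at h
    have h3 := φB_inj h
    exact sO_ne b (mul_inv_eq_iff_eq_mul.1 h3)

/-- conjugation of masks -/
theorem conj_mask {x : PP} {w : List ℕ} (hw : ρ x = e w) (m : ℕ) :
    ∃ c : Bool, (x : Cfsg.Spor.HN)⁻¹ * r Q m * x = r Q (app (mw w) m) * sgn0 c := r_conj x.2 (acts_of_ρ hw) m

/-- **automorphisms fixing `W0` and `a` are inner** -/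
theorem inner_of_fix {a : PP} (ha : ρ a = φA c5) {α : MulAut Cfsg.Spor.HN} (hW : α W0 = W0)
    (hαa : α (a : Cfsg.Spor.HN) = a) : ∃ n : Cfsg.Spor.HN, α = MulAut.conj n := by
  obtain ⟨u, hu, h1 | h1⟩ := aut_form hW
  · have hβW : (MulAut.conj u * α) W0 = W0 := by
      rw [MulAut.mul_apply, hW, conj_fix hu]
    obtain ⟨s, -, hs⟩ := aut0 hβW (triv_of_masks hβW h1)
    refine ⟨u⁻¹ * s, ?_⟩
    rw [map_mul, ← hs, map_inv, inv_mul_cancel_left]
  · exfalso
    set β : MulAut Cfsg.Spor.HN := MulAut.conj u * α with hβ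
    have hβW : β W0 = W0 := by
      rw [hβ, MulAut.mul_apply, hW, conj_fix hu]
    have hsg : ∀ c, β (sgn0 c) = sgn0 c := by
      intro c; cases c
      · exact map_one β
      · exact hβW
    let U : PP := ⟨u, hu⟩
    have hβa : β (a : Cfsg.Spor.HN) = ((U * a * U⁻¹ : PP) : Cfsg.Spor.HN) := by
      rw [hβ, MulAut.mul_apply, hαa, MulAut.conj_apply]
      rfl
    obtain ⟨w, hw⟩ := exists_word (ρ (U * a * U⁻¹))
    have haw : ρ a = e vA := ha.trans φA_c5
    -- the relation of masks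
    have key : ∀ m < 256, app (mw w) (app PHI m) = app PHI (app (mw vA) m) := by
      intro m hm
      obtain ⟨c, hc⟩ := conj_mask haw m
      obtain ⟨b, hb⟩ := h1 m hm
      obtain ⟨b', hb'⟩ := h1 (app (mw vA) m) (app_lt _ _)
      obtain ⟨d, hd⟩ := conj_mask hw (app PHI m)
      have h2 := congrArg β hc
      rw [map_mul, map_mul, map_inv, hβa, hb, map_mul, hb', hsg] at h2
      have h3 := csg b (((U * a * U⁻¹ : PP) : Cfsg.Spor.HN)) (mem_PP.1 (U * a * U⁻¹).2)
      have h4 : (((U * a * U⁻¹ : PP) : Cfsg.Spor.HN))⁻¹ * (r Q (app PHI m) * sgn0 b) * ((U * a * U⁻¹ : PP) : Cfsg.Spor.HN) =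
          r Q (app (mw w) (app PHI m)) * sgn0 (d ^^ b) := by
        calc (((U * a * U⁻¹ : PP) : Cfsg.Spor.HN))⁻¹ * (r Q (app PHI m) * sgn0 b) * ((U * a * U⁻¹ : PP) : Cfsg.Spor.HN)
            = (((U * a * U⁻¹ : PP) : Cfsg.Spor.HN))⁻¹ * r Q (app PHI m) * (sgn0 b * ((U * a * U⁻¹ : PP) : Cfsg.Spor.HN)) := by
              group
          _ = (((U * a * U⁻¹ : PP) : Cfsg.Spor.HN))⁻¹ * r Q (app PHI m) * ((U * a * U⁻¹ : PP) : Cfsg.Spor.HN) * sgn0 b := by
              rw [← h3]; group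
          _ = _ := by rw [hd, mul_assoc, sgn0_mul]
      rw [h4, mul_assoc, sgn0_mul] at h2
      exact mask_unique (app_lt _ _) (app_lt _ _) h2
    have h2 : mw w = mw vO := by
      refine pack_ext (mw_lt _) (mw_lt _) fun i hi => ?_
      have hm : 2 ^ i < 256 := lt_of_lt_of_le (Nat.pow_lt_pow_right (by norm_num) hi) (by norm_num)
      rw [← app_pow _ hi, ← app_pow _ hi, app_vO hm, ← key _ (app_lt _ _), app_PHI hm]
    have h3 : ρ (U * a * U⁻¹) = φB sO := by
      rw [hw, φB_sO]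
      exact e_eq h2
    rw [map_mul, map_mul, map_inv, ha] at h3
    exact not_conj_O _ h3

/-- **automorphisms fixing `a` are inner** -/
theorem inner_of_fix_y {a : PP} (ha : ρ a = φA c5) {α : MulAut Cfsg.Spor.HN}
    (hαa : α (a : Cfsg.Spor.HN) = a) : ∃ n : Cfsg.Spor.HN, α = MulAut.conj n := by
  have hfin : Finite Cfsg.Spor.HN := finite_HN
  -- the image of `W0` is a conjugate of `W0` in `C(a)`
  have hWa : (a : Cfsg.Spor.HN) * W0 = W0 * a := mem_PP.1 a.2
  have h1 : α W0 * (a : Cfsg.Spor.HN) = a * α W0 := by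
    calc α W0 * (a : Cfsg.Spor.HN) = α W0 * α a := by rw [hαa]
      _ = α (a * W0) := by rw [← map_mul, ← hWa]
      _ = a * α W0 := by rw [map_mul, hαa]
  have h2 : orderOf (⟨α W0, Subgroup.mem_centralizer_singleton_iff.2 h1⟩ :
      ↥(Subgroup.centralizer ({(a : Cfsg.Spor.HN)} : Set Cfsg.Spor.HN))) = 2 := by
    rw [← Subgroup.orderOf_coe]
    change orderOf (α W0) = 2
    rw [MulEquiv.orderOf_eq]
    exact TFive.order_W0
  obtain ⟨g, hg⟩ := (CpAutTh.RankOne.uInv_of_unique (TFive.order_sx a) (TFive.unique_one ha)).2 _ h2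
  have h3 : (g : Cfsg.Spor.HN) * W0 * (g : Cfsg.Spor.HN)⁻¹ = α W0 := congrArg Subtype.val hg
  have hga : (g : Cfsg.Spor.HN) * a = a * g := Subgroup.mem_centralizer_singleton_iff.1 g.2
  obtain ⟨n, hn⟩ := inner_of_fix (α := MulAut.conj (g : Cfsg.Spor.HN)⁻¹ * α) ha (by
    rw [MulAut.mul_apply, ← h3, MulAut.conj_apply]; group) (by
    rw [MulAut.mul_apply, hαa, MulAut.conj_apply]
    have : (g : Cfsg.Spor.HN)⁻¹ * a * (g : Cfsg.Spor.HN)⁻¹⁻¹ = (g : Cfsg.Spor.HN)⁻¹ * (a * g) := by group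
    rw [this, ← hga, inv_mul_cancel_left])
  refine ⟨(g : Cfsg.Spor.HN) * n, ?_⟩
  rw [map_mul, ← hn, map_inv, mul_inv_cancel_left]

end Cfsg.Agent.H481.EB.HN
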