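import Cfsg.Agent.H610.EB.Crit
import Cfsg.Agent.H684.EB.EvenS

/-!
# TEAM EB: the criterion (OUT)

`S` normal of index 2 in `G`, `Ψ` a class function on `S` with local coefficients, in the ideal outside the principal
block, fixed by the power map, of norm outside the ideal, and `a ∈ G ∖ S` moves the support of `Ψ` to a disjoint set.

* `concl_of_moved`: then the conclusion `Concl M G S k` holds;
* `OutFn`: the class function; `evenB_of_out`: the property `EvenB S` if `|Out S| ≤ 2`, every automorphism of `S` fixing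
  the element `y` of odd order is inner and `Ψ` is supported on the conjugates of the elements `y q`, `q` a 2-element.
-/

set_option autoImplicit false
set_option linter.unusedSectionVars false
set_option linter.style.haveILetI false

namespace Cfsg.Agent.H481.EB

open Cfsg Cfsg.Agent.Characters Cfsg.Agent.H694 Cfsg.Agent.H610 Cfsg.Agent.H610.EB Cfsg.Agent.H684.EB
open scoped ComplexConjugate
open Cfsg.Agent.Characters.Core
open Cfsg.Agent.OddOrderCharacters.NormalInduced (conjFn)
open Cfsg.Agent.OddOrderCharacters.PF9.CliffGen (resTo irr_ind)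
open Cfsg.Agent.Blocks.Local Cfsg.Agent.Blocks.Basic
open Cfsg.Agent.Blocks.Covering (conjIrr conjIrr_conjIrr conjIrr_one conjIrr_apply conjIrr_at_one)

universe u v

section
variable {G : Type u} [Group G] [Fintype G] {M : Ideal AlgInt} {k : ℕ}

/-- coefficients of the conjugate of a function -/
theorem classInner_conjNormal (S : Subgroup G) [S.Normal] [Fintype S] (F : S → ℂ) (a : G) (φ : IrrCharacter S) :
    classInner (fun s : S => F (MulAut.conjNormal a s)) (φ : S → ℂ) = classInner F (conjIrr S a⁻¹ φ : S → ℂ) := by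
  rw [← Clifford.classInner_comp_mulEquiv (MulAut.conjNormal a : MulAut S) F]
  refine congrArg (classInner _) ?_
  funext s
  show (φ : S → ℂ) s = (φ : S → ℂ) (MulAut.conjNormal a⁻¹ (MulAut.conjNormal a s))
  rw [← MulAut.mul_apply, ← map_mul, inv_mul_cancel, map_one]
  rfl

/-- **(OUT)** -/
theorem concl_of_moved (hM : IsPModular 2 M) (S : Subgroup G) [hS : S.Normal] [Fintype S] (hidx : S.index = 2)
    (hk : IsK G k) {Ψ : S → ℂ} (hcf : IsClassFunction S Ψ)
    (hint : ∀ χ : IrrCharacter S, MemLocalRing M (classInner Ψ (χ : S → ℂ)))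
    (hB : ∀ χ : IrrCharacter S, χ ∉ principalBlock M S → MemLocalIdeal M (classInner Ψ (χ : S → ℂ)))
    (hΨk : ∀ s : S, Ψ (s ^ k) = Ψ s)
    (hreal : ∀ χ : IrrCharacter S, conj (classInner Ψ (χ : S → ℂ)) = classInner Ψ (χ : S → ℂ))
    (hnorm : ¬ MemLocalIdeal M (classInner Ψ Ψ)) {a : G} (ha : a ∉ S)
    (hdis : ∀ s : S, Ψ s = 0 ∨ Ψ (MulAut.conjNormal a s) = 0) : Concl M G S k := by
  classical
  have hprime : M.IsPrime := isPrime_of_isPModular hM
  haveI := charP_resField hM
  haveI := @Fintype.ofFinite (IrrCharacter S) finite_irr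
  have hcf' : IsClassFunction S (fun s : S => Ψ (MulAut.conjNormal a s)) := by
    intro g s
    show Ψ (MulAut.conjNormal a _) = Ψ (MulAut.conjNormal a _)
    rw [map_mul, map_mul, map_inv]
    exact hcf _ _
  -- the two sums
  have h1 : classInner Ψ (fun s : S => Ψ (MulAut.conjNormal a s)) = 0 := by
    rw [Core.classInner_def]
    rw [Finset.sum_eq_zero, mul_zero]
    intro s _
    rcases hdis s with h | h
    · rw [h, zero_mul]
    · rw [h, map_zero, mul_zero]
  rw [classInner_eq_sum hcf hcf'] at h1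
  rw [classInner_eq_sum hcf hcf] at hnorm
  have h2 : ∀ χ : IrrCharacter S, classInner Ψ (χ : S → ℂ) *
      conj (classInner (fun s : S => Ψ (MulAut.conjNormal a s)) (χ : S → ℂ)) =
      classInner Ψ (χ : S → ℂ) * classInner Ψ (conjIrr S a⁻¹ χ : S → ℂ) := by
    intro χ
    rw [classInner_conjNormal, hreal]
  rw [Finset.sum_congr rfl fun χ _ => h2 χ] at h1
  have h3 : ∀ χ : IrrCharacter S, MemLocalRing M (classInner Ψ (χ : S → ℂ) * classInner Ψ (χ : S → ℂ) +
      classInner Ψ (χ : S → ℂ) * classInner Ψ (conjIrr S a⁻¹ χ : S → ℂ)) := fun χ =>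
    memLocalRing_add (memLocalRing_mul (hint _) (hint _)) (memLocalRing_mul (hint _) (hint _))
  have h4 : ∑ χ : IrrCharacter S, redC M (classInner Ψ (χ : S → ℂ) * classInner Ψ (χ : S → ℂ) +
      classInner Ψ (χ : S → ℂ) * classInner Ψ (conjIrr S a⁻¹ χ : S → ℂ)) ≠ 0 := by
    rw [← redC_sum fun χ _ => h3 χ, Finset.sum_add_distrib, h1, add_zero]
    intro h
    apply hnorm
    have h5 : ∑ χ : IrrCharacter S, classInner Ψ (χ : S → ℂ) * conj (classInner Ψ (χ : S → ℂ)) =
        ∑ χ : IrrCharacter S, classInner Ψ (χ : S → ℂ) * classInner Ψ (χ : S → ℂ) :=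
      Finset.sum_congr rfl fun χ _ => by rw [hreal]
    rw [h5]
    exact (redC_eq_zero_iff (memLocalRing_sum fun χ _ => memLocalRing_mul (hint _) (hint _))).1 h
  letI : MulAction Unit (IrrCharacter S) :=
    { smul := fun _ χ => χ
      one_smul := fun _ => rfl
      mul_smul := fun _ _ _ => rfl }
  obtain ⟨φ, -, hφ1, hφ2⟩ := exists_fixed_ne (P := Unit) (X := IrrCharacter S)
    (fun _ => ⟨0, Subsingleton.elim _ _⟩) (Twist.pw (hk.sub S).coprime) (pw_pw (hk.sub S)) (fun _ _ => rfl) _
    (fun _ _ => rfl) (by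
      intro χ
      congr 2
      · rw [classInner_pw (hk.sub S) hΨk]
      · rw [conjIrr_pw S hk, classInner_pw (hk.sub S) hΨk, classInner_pw (hk.sub S) hΨk]) h4
  have hφB : φ ∈ principalBlock M S := by
    by_contra hcon
    apply hφ2
    rw [redC_add (memLocalRing_mul (hint _) (hint _)) (memLocalRing_mul (hint _) (hint _)),
      redC_mul (hint _) (hint _), redC_mul (hint _) (hint _), (redC_eq_zero_iff (hint φ)).2 (hB φ hcon), zero_mul,
      zero_mul, add_zero]
  have hmov : conjIrr S a⁻¹ φ ≠ φ := by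
    intro h
    apply hφ2
    rw [h, redC_add (memLocalRing_mul (hint _) (hint _)) (memLocalRing_mul (hint _) (hint _)), CharTwo.add_self_eq_zero]
  have hφk := (Twist.fixed_iff (hk.sub S).coprime φ).1 hφ1
  have hφ1' : (φ : S → ℂ) ≠ fun _ => 1 := by
    intro h
    apply hmov
    apply Subtype.ext
    funext s
    rw [conjIrr_apply, h]
  refine of_inertia hM S ⟨1, by rw [hidx, pow_one]⟩ hk φ hφB hφk hφ1' S ?_ le_rfl (π := (φ : S → ℂ))
    (GC.of_irr φ.2) hφk ?_ (Or.inr ?_)
  · intro g
    constructor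
    · intro hg
      exact congrArg Subtype.val (conjIrr_mem_self S hg φ)
    · intro h
      by_contra hg
      have hga : g * a ∈ S := by
        rw [Subgroup.mul_mem_iff_of_index_two hidx]
        tauto
      apply hmov
      have h5 : conjIrr S g φ = φ := Subtype.ext h
      have h6 : conjIrr S (g * a) φ = φ := conjIrr_mem_self S hga φ
      have h7 : conjIrr S a⁻¹ (conjIrr S (g * a) φ) = conjIrr S (g * a * a⁻¹) φ := conjIrr_conjIrr S _ _ _
      rw [h6, mul_inv_cancel_right, h5] at h7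
      exact h7
  · have h5 : mu (resTo (le_refl S) (φ : S → ℂ)) (φ : S → ℂ) = 1 := by
      have h6 : classInner (resTo (le_refl S) (φ : S → ℂ)) (φ : S → ℂ) = ((1 : ℤ) : ℂ) := by
        have h7 : resTo (le_refl S) (φ : S → ℂ) = (φ : S → ℂ) := rfl
        rw [h7, classInner_irr_self φ.2]
        push_cast
        rfl
      exact mu_eq h6
    rw [h5]
    exact odd_one
  · intro h
    apply ha
    rw [h]
    exact Subgroup.mem_top a

end

/-! ### the class function -/

/-- The class function needed for (OUT), supported on the conjugates of the elements `y q`, `q` a 2-element commuting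
with `y`. -/
structure OutFn (M : Ideal AlgInt) (k : ℕ) {S : Type u} [Group S] [Fintype S] (y : S) (Ψ : S → ℂ) : Prop where
  cf : IsClassFunction S Ψ
  int : ∀ χ : IrrCharacter S, MemLocalRing M (classInner Ψ (χ : S → ℂ))
  blk : ∀ χ : IrrCharacter S, χ ∉ principalBlock M S → MemLocalIdeal M (classInner Ψ (χ : S → ℂ))
  pow : ∀ s : S, Ψ (s ^ k) = Ψ s
  real : ∀ χ : IrrCharacter S, conj (classInner Ψ (χ : S → ℂ)) = classInner Ψ (χ : S → ℂ)
  norm : ¬ MemLocalIdeal M (classInner Ψ Ψ)
  supp : ∀ s : S, Ψ s ≠ 0 → ∃ t q : S, Commute y q ∧ (∃ j : ℕ, orderOf q = 2 ^ j) ∧ s = t * (y * q) * t⁻¹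

theorem OutFn.congr {S : Type u} [Group S] [Fintype S] {T : Type v} [Group T] [Fintype T] (e : S ≃* T)
    {M : Ideal AlgInt} {k : ℕ} {y : S} {Ψ : S → ℂ} (h : OutFn M k y Ψ) :
    OutFn M k (e y) (Ψ ∘ e.symm) := by
  have hin : ∀ χ : IrrCharacter T, classInner (Ψ ∘ e.symm) (χ : T → ℂ) = classInner Ψ (pull e χ : S → ℂ) := by
    intro χ
    rw [← Clifford.classInner_comp_mulEquiv e.symm Ψ (pull e χ : S → ℂ)]
    congr 1
    funext t
    rw [Function.comp_apply, pull_apply, e.apply_symm_apply]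
  refine ⟨?_, ?_, ?_, ?_, ?_, ?_, ?_⟩
  · intro g t
    rw [Function.comp_apply, Function.comp_apply, map_mul, map_mul, map_inv]
    exact h.cf _ _
  · intro χ
    rw [hin]
    exact h.int _
  · intro χ hχ
    rw [hin]
    exact h.blk _ fun h1 => hχ ((pull_mem e χ).1 h1)
  · intro t
    rw [Function.comp_apply, Function.comp_apply, map_pow]
    exact h.pow _
  · intro χ
    rw [hin]
    exact h.real _
  · rw [Clifford.classInner_comp_mulEquiv e.symm]
    exact h.norm
  · intro t ht
    obtain ⟨x, q, h1, ⟨j, hj⟩, h2⟩ := h.supp _ ht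
    refine ⟨e x, e q, h1.map e.toMonoidHom, ⟨j, ?_⟩, ?_⟩
    · rw [← hj]
      exact orderOf_injective e.toMonoidHom e.injective q
    · rw [← map_mul, ← map_mul, ← map_inv, ← map_mul, ← h2, e.apply_symm_apply]

/-- The 2'-part. -/
theorem exists_exp {S : Type*} [Group S] {y : S} (hy : Odd (orderOf y)) {q q' : S} (hq : ∃ j : ℕ, orderOf q = 2 ^ j)
    (hq' : ∃ j : ℕ, orderOf q' = 2 ^ j) : ∃ n : ℕ, y ^ n = y ∧ q ^ n = 1 ∧ q' ^ n = 1 := by
  obtain ⟨j, hj⟩ := hq
  obtain ⟨j', hj'⟩ := hq'
  obtain ⟨n, hn1, hn2⟩ := Nat.chineseRemainder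
    (show Nat.Coprime (orderOf y) (2 ^ (j + j')) from (Nat.coprime_two_right.2 hy).pow_right _) 1 0
  refine ⟨n, ?_, ?_, ?_⟩
  · nth_rewrite 2 [← pow_one y]
    rw [pow_eq_pow_iff_modEq]
    exact hn1
  · rw [← orderOf_dvd_iff_pow_eq_one, hj]
    exact (pow_dvd_pow 2 (Nat.le_add_right j j')).trans ((Nat.modEq_zero_iff_dvd).1 hn2)
  · rw [← orderOf_dvd_iff_pow_eq_one, hj']
    exact (pow_dvd_pow 2 (Nat.le_add_left j' j)).trans ((Nat.modEq_zero_iff_dvd).1 hn2)

/-- Automorphisms which are not inner move the support of the function to a disjoint set. -/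
theorem OutFn.disjoint {S : Type u} [Group S] [Fintype S] {M : Ideal AlgInt} {k : ℕ} {y : S} {Ψ : S → ℂ}
    (h : OutFn M k y Ψ) (hy : Odd (orderOf y))
    (hfix : ∀ α : MulAut S, α y = y → ∃ n : S, α = MulAut.conj n) {α : MulAut S}
    (hα : ∀ n : S, α ≠ MulAut.conj n) (s : S) : Ψ s = 0 ∨ Ψ (α s) = 0 := by
  by_contra hcon
  push Not at hcon
  obtain ⟨t, q, h1, hq, h2⟩ := h.supp s hcon.1
  obtain ⟨t', q', h1', hq', h2'⟩ := h.supp _ hcon.2
  obtain ⟨n, hn1, hn2, hn3⟩ := exists_exp hy hq hq'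
  have h3 : s ^ n = t * y * t⁻¹ := by rw [h2, conj_pow, h1.mul_pow, hn1, hn2, mul_one]
  have h4 : (α s) ^ n = t' * y * t'⁻¹ := by rw [h2', conj_pow, h1'.mul_pow, hn1, hn3, mul_one]
  rw [← map_pow, h3] at h4
  obtain ⟨m, hm⟩ := hfix (MulAut.conj t'⁻¹ * α * MulAut.conj t) (by
    rw [MulAut.mul_apply, MulAut.mul_apply, MulAut.conj_apply, MulAut.conj_apply, h4]
    group)
  apply hα (t' * m * t⁻¹)
  rw [map_mul, map_mul, ← hm, map_inv, map_inv]
  group

/-! ### the property `EvenB` -/

section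
variable {S : Type u} [Group S] {G : Type u} [Group G] {N : Subgroup G} [N.Normal]

/-- The automorphism of `S` induced by an element of `G`. -/
noncomputable def act (e : S ≃* N) : G →* MulAut S :=
  (MulAut.congr e.symm).toMonoidHom.comp (MulAut.conjNormal : G →* MulAut N)

theorem act_apply (e : S ≃* N) (g : G) (x : S) : act e g x = e.symm (MulAut.conjNormal g (e x)) := rfl

theorem mem_of_act (e : S ≃* N) (hC : Subgroup.centralizer (N : Set G) = ⊥) {g : G} {s : S}
    (h : act e g = MulAut.conj s) : g ∈ N := by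
  have h1 : ∀ x : S, g * (e x : G) * g⁻¹ = (e s : G) * e x * (e s : G)⁻¹ := by
    intro x
    have h2 : act e g x = MulAut.conj s x := by rw [h]
    rw [act_apply, MulAut.conj_apply] at h2
    have h3 := congrArg (fun t : S => (e t : G)) h2
    simp only [e.apply_symm_apply, MulAut.conjNormal_apply, map_mul, map_inv, Subgroup.coe_mul, Subgroup.coe_inv] at h3
    exact h3
  have h2 : (e s : G)⁻¹ * g ∈ Subgroup.centralizer (N : Set G) := by
    rw [Subgroup.mem_centralizer_iff]
    intro n hn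
    obtain ⟨x, hx⟩ := e.surjective ⟨n, hn⟩
    have h3 := h1 x
    rw [hx] at h3
    have h4 : g * n * g⁻¹ = (e s : G) * n * (e s : G)⁻¹ := h3
    calc n * ((e s : G)⁻¹ * g) = (e s : G)⁻¹ * ((e s : G) * n * (e s : G)⁻¹) * g := by group
      _ = (e s : G)⁻¹ * g * n := by rw [← h4]; group
  rw [hC, Subgroup.mem_bot] at h2
  rw [← inv_mul_eq_one.1 h2]
  exact (e s).2

end

/-- **(OUT)** for the property `EvenB` -/
theorem evenB_of_out {S : Type u} [Group S] [Finite S] (hS : EvenS S)
    (hout : (MulAut.conj : S →* MulAut S).range.index = 1 ∨ (MulAut.conj : S →* MulAut S).range.index = 2) {y : S}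
    (hy : Odd (orderOf y)) (hfix : ∀ α : MulAut S, α y = y → ∃ n : S, α = MulAut.conj n)
    (hΨ : ∀ [Fintype S] (k : ℕ), IsK S k → ∀ M : Ideal AlgInt, IsPModular 2 M → ∃ Ψ : S → ℂ, OutFn M k y Ψ) :
    EvenB S := by
  intro G _ _ N hN _ f hC hi k hk M hM
  obtain ⟨e⟩ := f
  haveI := Fintype.ofFinite S
  by_cases hNtop : N = ⊤
  · have hSG : S ≃* G := (e.trans (MulEquiv.subgroupCongr hNtop)).trans Subgroup.topEquiv
    exact (hS.congr hSG).concl_top N hNtop hk hM
  obtain ⟨a, ha⟩ : ∃ a : G, a ∉ N := by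
    by_contra hcon
    push Not at hcon
    exact hNtop ((eq_top_iff).2 fun g _ => hcon g)
  set I := (MulAut.conj : S →* MulAut S).range with hI
  have hact : ∀ g : G, g ∉ N → act e g ∉ I := by
    rintro g hg ⟨s, hs⟩
    exact hg (mem_of_act e hC hs.symm)
  have hI2 : I.index = 2 := by
    rcases hout with h | h
    · exfalso
      rw [Subgroup.index_eq_one] at h
      apply hact a ha
      rw [h]
      exact Subgroup.mem_top _
    · exact h
  have hidx : N.index = 2 := by
    rw [Subgroup.index_eq_two_iff]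
    refine ⟨a, fun b => ?_⟩
    by_cases hb : b ∈ N
    · right
      refine ⟨hb, fun h => ha ?_⟩
      have h1 := N.mul_mem (N.inv_mem hb) h
      rwa [inv_mul_cancel_left] at h1
    · left
      refine ⟨?_, hb⟩
      have h1 : act e (b * a) ∈ I := by
        rw [map_mul, Subgroup.mul_mem_iff_of_index_two hI2]
        have := hact a ha
        have := hact b hb
        tauto
      obtain ⟨s, hs⟩ := h1
      exact mem_of_act e hC hs.symm
  have hkN : IsK N k := hk.sub N
  obtain ⟨Ψ, hΨ⟩ := hΨ k (isK_congr e.symm hkN) M hM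
  have hΨN := hΨ.congr e
  have hα : ∀ n : S, act e a ≠ MulAut.conj n := by
    intro n hn
    exact ha (mem_of_act e hC hn)
  have hdis := hΨ.disjoint hy hfix hα
  refine concl_of_moved hM N hidx hk hΨN.cf hΨN.int hΨN.blk hΨN.pow hΨN.real hΨN.norm ha ?_
  intro n
  have h1 := hdis (e.symm n)
  rw [act_apply, e.apply_symm_apply] at h1
  exact h1

end Cfsg.Agent.H481.EB
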