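import Cfsg.Agent.H684.EB.EvenS

/-!
# TEAM EB: the property `EvenB` in all universes

* `concl_congr`: the conclusion `Concl` along an isomorphism between groups in different universes;
* `evenB_univ`: `EvenB T` implies `EvenB S` for `S ≃* T`, `S`, `T` in different universes.
-/

set_option autoImplicit false

namespace Cfsg.Agent.H481.EB

open Cfsg Cfsg.Agent.H610.EB Cfsg.Agent.H684.EB

universe u v

theorem concl_congr {G : Type u} [Group G] {H : Type v} [Group H] (e : G ≃* H) {M : Ideal AlgInt} {k : ℕ}
    {N : Subgroup G} [Fintype N] {K : Subgroup H} [Fintype K] (hK : ∀ g, g ∈ N ↔ e g ∈ K) (h : Concl M H K k) :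
    Concl M G N k := by
  obtain ⟨χ, h1, h2, h3, h4⟩ := h
  refine ⟨pull e χ, (pull_mem e χ).2 h1, ?_, ?_, ?_⟩
  · rw [charDegree_pull]
    exact h2
  · intro g
    rw [pull_apply, pull_apply, map_pow, h3]
  · let f : N ≃* K :=
      { toFun := fun n => ⟨e n, (hK n).1 n.2⟩
        invFun := fun m => ⟨e.symm m, (hK _).2 (by rw [e.apply_symm_apply]; exact m.2)⟩
        left_inv := fun n => Subtype.ext (e.symm_apply_apply (n : G))
        right_inv := fun m => Subtype.ext (e.apply_symm_apply (m : H))
        map_mul' := fun a b => Subtype.ext (map_mul e (a : G) (b : G)) }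
    rw [← Characters.Clifford.classInner_comp_mulEquiv f] at h4
    exact h4

theorem evenB_univ {S : Type u} [Group S] {T : Type v} [Group T] (e : S ≃* T) (h : EvenB T) : EvenB S := by
  intro G _ _ N hN _ f hC hi k hk M hM
  obtain ⟨f⟩ := f
  have hsm : Small.{v} G := inferInstance
  let s : G ≃* Shrink.{v} G := (Shrink.mulEquiv (α := G)).symm
  have hfin : Finite (Shrink.{v} G) := Finite.of_equiv G s.toEquiv
  have hft : Fintype (Shrink.{v} G) := Fintype.ofFinite _
  let N' : Subgroup (Shrink.{v} G) := N.map s.toMonoidHom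
  have hN' : N'.Normal := hN.map s.toMonoidHom s.surjective
  have hfN' : Fintype N' := Fintype.ofFinite _
  have hmem : ∀ g : G, g ∈ N ↔ s g ∈ N' := by
    intro g
    constructor
    · intro hg
      exact ⟨g, hg, rfl⟩
    · rintro ⟨x, hx, hxg⟩
      have : x = g := s.injective hxg
      rwa [← this]
  have hNN' : N ≃* N' := N.equivMapOfInjective s.toMonoidHom s.injective
  refine concl_congr s hmem (h (Shrink.{v} G) N' ⟨(e.symm.trans f).trans hNN'⟩ ?_ ?_ k (isK_congr s hk) M hM)
  · rw [eq_bot_iff]
    intro x hx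
    rw [Subgroup.mem_bot]
    obtain ⟨g, rfl⟩ := s.surjective x
    have h1 : g ∈ Subgroup.centralizer (N : Set G) := by
      rw [Subgroup.mem_centralizer_iff] at hx ⊢
      intro n hn
      have h2 := hx (s n) ((hmem n).1 hn)
      rw [← map_mul, ← map_mul] at h2
      exact s.injective h2
    rw [hC, Subgroup.mem_bot] at h1
    rw [h1, map_one]
  · obtain ⟨j, hj⟩ := hi
    refine ⟨j, ?_⟩
    rw [← hj]
    have h1 : N = N'.comap s.toMonoidHom := by
      ext g
      rw [Subgroup.mem_comap]
      exact hmem g
    have h2 : (N'.comap s.toMonoidHom).index = N'.index := Subgroup.index_comap_of_surjective N' s.surjective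
    rw [← h2, ← h1]

end Cfsg.Agent.H481.EB
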